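import Cfsg.Agent.SingularInvol.Base

/-!
Orthogonality of singular involutions is symmetric.
-/

set_option autoImplicit false

namespace Cfsg.Agent.SingularInvol

open CfsgLib.LargeEx

variable {G : Type*} [Group G]

/-- The four-group generated by two commuting involutions. -/
def four (a b : G) (ha : a * a = 1) (hb : b * b = 1) (hab : b * a = a * b) : Subgroup G where
  carrier := {y | y = 1 ∨ y = a ∨ y = b ∨ y = a * b}
  one_mem' := Or.inl rfl
  inv_mem' := by
    have hai : a⁻¹ = a := inv_eq_of_mul_eq_one_right ha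
    have hbi : b⁻¹ = b := inv_eq_of_mul_eq_one_right hb
    rintro y (rfl | rfl | rfl | rfl) <;> simp [hai, hbi, hab]
  mul_mem' := by
    have h1 : a * (a * b) = b := by rw [← mul_assoc, ha, one_mul]
    have h2 : b * (a * b) = a := by rw [← mul_assoc, hab, mul_assoc, hb, mul_one]
    have h3 : a * b * a = b := by rw [mul_assoc, hab, h1]
    have h4 : a * b * b = a := by rw [mul_assoc, hb, mul_one]
    have h5 : a * b * (a * b) = 1 := by rw [mul_assoc, h2, ha]
    rintro y w (rfl | rfl | rfl | rfl) (rfl | rfl | rfl | rfl) <;>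
      simp [ha, hb, hab, h1, h2, h3, h4, h5]

theorem mem_zpowers_two {x c : G} (hx : x * x = 1) :
    c ∈ Subgroup.zpowers x ↔ c = 1 ∨ c = x := by
  constructor
  · rintro ⟨k, rfl⟩
    have h2 : x ^ (2 : ℤ) = 1 := by rw [zpow_two, hx]
    rcases Int.even_or_odd k with ⟨j, rfl⟩ | ⟨j, rfl⟩
    · left
      show x ^ (j + j) = 1
      rw [← two_mul, zpow_mul, h2, one_zpow]
    · right
      show x ^ (2 * j + 1) = x
      rw [zpow_add_one, zpow_mul, h2, one_zpow, one_mul]
  · rintro (rfl | rfl)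
    · exact one_mem _
    · exact Subgroup.mem_zpowers _

theorem commute_of_sq {h x : G} {n : ℕ} (hn : Odd n) (h1 : h ^ n = 1)
    (h2 : Commute (h * h) x) : Commute h x := by
  obtain ⟨j, hj⟩ := hn
  have : h = (h * h) ^ (j + 1) := by
    rw [← pow_two, ← pow_mul, show 2 * (j + 1) = n + 1 by omega, pow_succ, h1, one_mul]
  rw [this]
  exact h2.pow_left _

namespace Setup

variable [Finite G] (S : Setup G)

/-- If `z ∉ Q x` then no element of odd order of the centralizer of `z` is non-trivial, in the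
case that the centralizer of `x` in `Q z` is a four-group. -/
theorem odd_eq_one {x : G} (hxE : x ∈ S.Q S.z) (hx2 : x * x = 1) (hx1 : x ≠ 1) (hxz : x ≠ S.z)
    (hR : ∀ r ∈ S.Q S.z, r * x = x * r → r = 1 ∨ r = S.z ∨ r = x ∨ r = S.z * x)
    {h : G} (hhz : h * S.z = S.z * h) {n : ℕ} (hn : Odd n) (hh : h ^ n = 1) : h = 1 := by
  set z := S.z with hz
  have d := S.data_z
  have hzx : z * x = x * z := d.comm x hxE
  have hfixz : h * z * h⁻¹ = z := by rw [hhz, mul_inv_cancel_right]
  have hcE : ∀ e ∈ S.Q z, h * e * h⁻¹ ∈ S.Q z := fun e he => S.conj_mem hhz he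
  obtain ⟨q0, hq0, hq0x⟩ := d.exists_conj_mul hxE hx1 hxz
  have hsplit : ∀ e ∈ S.Q z, e * x ≠ x * e →
      ∃ t, (t = 1 ∨ t = z ∨ t = x ∨ t = z * x) ∧ e = q0 * t := by
    intro e he hne
    refine ⟨q0⁻¹ * e, hR _ (mul_mem (inv_mem hq0) he) ?_, by group⟩
    have h1 : e * x * e⁻¹ = x * z := by
      rcases S.conj_eq S.singular_z he hxE with h1 | h1
      · exact absurd (by rw [← mul_inv_eq_iff_eq_mul]; exact h1) hne
      · exact h1
    have h2 : e * x * e⁻¹ = q0 * x * q0⁻¹ := by rw [h1, hq0x]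
    calc q0⁻¹ * e * x = q0⁻¹ * (e * x * e⁻¹) * e := by group
      _ = q0⁻¹ * (q0 * x * q0⁻¹) * e := by rw [h2]
      _ = x * (q0⁻¹ * e) := by group
  have hhx : Commute h x := by
    by_contra hne
    set a := h * x * h⁻¹ with ha
    have haE : a ∈ S.Q z := hcE x hxE
    have ha2 : a * a = 1 := by
      rw [ha, show h * x * h⁻¹ * (h * x * h⁻¹) = h * (x * x) * h⁻¹ by group, hx2]; group
    have hnx : a ≠ x := fun h1 => hne (by
      show h * x = x * h
      rw [← mul_inv_eq_iff_eq_mul]; exact h1)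
    have hnxz : a ≠ x * z := by
      intro h1
      refine hne (commute_of_sq hn hh ?_)
      show h * h * x = x * (h * h)
      rw [← mul_inv_eq_iff_eq_mul]
      calc h * h * x * (h * h)⁻¹ = h * a * h⁻¹ := by rw [ha]; group
        _ = h * (x * z) * h⁻¹ := by rw [h1]
        _ = a * (h * z * h⁻¹) := by rw [ha]; group
        _ = x * (z * z) := by rw [h1, hfixz]; group
        _ = x := by rw [d.sq, mul_one]
    have hax : a * x ≠ x * a := by
      intro h1
      rcases hR a haE h1 with h2 | h2 | h2 | h2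
      · exact hx1 (conj_eq_one_iff.1 h2)
      · exact hxz (mul_left_cancel (mul_right_cancel
          (show h * x * h⁻¹ = h * z * h⁻¹ by rw [hfixz]; exact h2)))
      · exact hnx h2
      · exact hnxz (by rw [h2, hzx])
    -- the involutions of `Q z` outside the four-group of `x` are `a` and `a z`
    have hinv : ∀ e ∈ S.Q z, e * e = 1 → e * x ≠ x * e → e = a ∨ e = a * z := by
      intro e he he2 hne'
      obtain ⟨t, ht, rfl⟩ := hsplit e he hne'
      obtain ⟨t', ht', hat⟩ := hsplit a haE hax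
      set K := four z x d.sq hx2 hzx.symm
      obtain ⟨s, hs, hes⟩ : ∃ s, (s = 1 ∨ s = z ∨ s = x ∨ s = z * x) ∧ q0 * t = a * s :=
        ⟨t'⁻¹ * t, K.mul_mem (K.inv_mem ht') ht, by rw [hat]; group⟩
      rw [hes] at he2 ⊢
      rcases hs with hs | hs | hs | hs <;> rw [hs] at he2 ⊢
      · exact Or.inl (mul_one a)
      · exact Or.inr rfl
      · refine absurd ?_ hax
        calc a * x = (a * x * (a * x)) * (x⁻¹ * a⁻¹) := by group
          _ = x * a := by
            rw [he2, inv_eq_of_mul_eq_one_right hx2, inv_eq_of_mul_eq_one_right ha2, one_mul]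
      · refine absurd ?_ hax
        have h3 : a * x * (a * x) = 1 := by
          calc a * x * (a * x) = a * x * (a * x) * (z * z) := by rw [d.sq, mul_one]
            _ = a * x * ((a * x) * z) * z := by group
            _ = a * x * (z * (a * x)) * z := by rw [d.comm _ (mul_mem haE hxE)]
            _ = a * (x * z) * (a * (x * z)) := by group
            _ = 1 := by rw [← hzx]; exact he2
        calc a * x = (a * x * (a * x)) * (x⁻¹ * a⁻¹) := by group
          _ = x * a := by
            rw [h3, inv_eq_of_mul_eq_one_right hx2, inv_eq_of_mul_eq_one_right ha2, one_mul]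
    have hb2 : h * a * h⁻¹ * (h * a * h⁻¹) = 1 := by
      rw [show h * a * h⁻¹ * (h * a * h⁻¹) = h * (a * a) * h⁻¹ by group, ha2]; group
    by_cases hcx : h * a * h⁻¹ * x = x * (h * a * h⁻¹)
    · have h4 : Commute (h * h * (h * h)) x := by
        have h5 : h * a * h⁻¹ = x ∨ h * a * h⁻¹ = x * z := by
          rcases hR _ (hcE a haE) hcx with h2 | h2 | h2 | h2
          · exact absurd (conj_eq_one_iff.1 h2) (fun h3 => hx1 (conj_eq_one_iff.1 h3))
          · have h3 : a = z := mul_left_cancel (mul_right_cancel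
              (show h * a * h⁻¹ = h * z * h⁻¹ by rw [hfixz]; exact h2))
            exact absurd (mul_left_cancel (mul_right_cancel
              (show h * x * h⁻¹ = h * z * h⁻¹ by rw [hfixz]; exact h3))) hxz
          · exact Or.inl h2
          · exact Or.inr (by rw [h2, hzx])
        show h * h * (h * h) * x = x * (h * h * (h * h))
        rw [← mul_inv_eq_iff_eq_mul]
        have h6 : h * h * x * (h * h)⁻¹ = h * a * h⁻¹ := by rw [ha]; group
        have h7 : h * h * z * (h * h)⁻¹ = z := by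
          calc h * h * z * (h * h)⁻¹ = h * (h * z * h⁻¹) * h⁻¹ := by group
            _ = z := by rw [hfixz, hfixz]
        calc h * h * (h * h) * x * (h * h * (h * h))⁻¹
            = h * h * (h * h * x * (h * h)⁻¹) * (h * h)⁻¹ := by group
          _ = h * h * (h * a * h⁻¹) * (h * h)⁻¹ := by rw [h6]
          _ = x := by
            rcases h5 with h5 | h5
            · rw [h5, h6, h5]
            · rw [h5, show h * h * (x * z) * (h * h)⁻¹
                = (h * h * x * (h * h)⁻¹) * (h * h * z * (h * h)⁻¹) by group, h6, h7, h5,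
                mul_assoc, d.sq, mul_one]
      refine hne (commute_of_sq hn hh (commute_of_sq hn ?_ h4))
      calc (h * h) ^ n = h ^ n * h ^ n := (Commute.refl h).mul_pow n
        _ = 1 := by rw [hh, one_mul]
    · rcases hinv _ (hcE a haE) hb2 hcx with h2 | h2
      · exact hnx (mul_left_cancel (mul_right_cancel (show h * a * h⁻¹ = h * x * h⁻¹ from h2)))
      · exact hnxz (mul_left_cancel (mul_right_cancel
          (show h * a * h⁻¹ = h * (x * z) * h⁻¹ by
            rw [h2, show h * (x * z) * h⁻¹ = (h * x * h⁻¹) * (h * z * h⁻¹) by group, hfixz])))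
  have hxq0 : q0 * x ≠ x * q0 := by
    intro h1
    apply d.ne_one
    have h2 : x * z = x * 1 := by rw [← hq0x, h1, mul_inv_cancel_right, mul_one]
    exact mul_left_cancel h2
  have hxh' : h * q0 * h⁻¹ * x ≠ x * (h * q0 * h⁻¹) := by
    intro h1
    apply hxq0
    have h2 := congrArg (fun t => h⁻¹ * t * h) h1
    calc q0 * x = h⁻¹ * (h * q0 * h⁻¹ * (h * x * h⁻¹)) * h := by group
      _ = h⁻¹ * (h * q0 * h⁻¹ * x) * h := by rw [hhx.eq, mul_inv_cancel_right]
      _ = h⁻¹ * (x * (h * q0 * h⁻¹)) * h := by rw [h1]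
      _ = h⁻¹ * (h * x * h⁻¹ * (h * q0 * h⁻¹)) * h := by rw [hhx.eq, mul_inv_cancel_right]
      _ = x * q0 := by group
  obtain ⟨t, ht, hqt⟩ := hsplit _ (hcE q0 hq0) hxh'
  have htfix : h * t * h⁻¹ = t := by
    rcases ht with rfl | rfl | rfl | rfl
    · group
    · exact hfixz
    · rw [hhx.eq, mul_inv_cancel_right]
    · rw [show h * (z * x) * h⁻¹ = (h * z * h⁻¹) * (h * x * h⁻¹) by group, hfixz, hhx.eq,
        mul_inv_cancel_right]
  have hpow : ∀ k : ℕ, h ^ k * q0 * (h ^ k)⁻¹ = q0 * t ^ k := by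
    intro k
    induction k with
    | zero => simp
    | succ k ih =>
      rw [pow_succ' h, show h * h ^ k * q0 * (h * h ^ k)⁻¹ = h * (h ^ k * q0 * (h ^ k)⁻¹) * h⁻¹ by
        group, ih, show h * (q0 * t ^ k) * h⁻¹ = (h * q0 * h⁻¹) * (h * t * h⁻¹) ^ k by
        rw [conj_pow]; group, htfix, hqt, mul_assoc, ← pow_succ' t]
  have ht2 : t * t = 1 := by
    rcases ht with rfl | rfl | rfl | rfl
    · exact one_mul 1
    · exact d.sq
    · exact hx2
    · calc z * x * (z * x) = z * (x * z) * x := by group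
        _ = z * (z * x) * x := by rw [hzx]
        _ = (z * z) * (x * x) := by group
        _ = 1 := by rw [d.sq, hx2, one_mul]
  have ht1 : t = 1 := by
    have h1 := hpow n
    rw [hh] at h1
    simp only [one_mul, inv_one, mul_one] at h1
    replace h1 : t ^ n = 1 := mul_left_cancel (h1.symm.trans (mul_one q0).symm)
    obtain ⟨j, hj⟩ := hn
    rw [hj, pow_add, pow_mul, pow_two, ht2, one_pow, one_mul, pow_one] at h1
    exact h1
  rw [ht1, mul_one] at hqt
  have hmem : h ∈ Subgroup.centralizer ((S.Q z : Subgroup G) : Set G) := by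
    refine Subgroup.mem_centralizer_iff.2 fun e he => ?_
    have hk : ∀ e' ∈ S.Q z, e' * x = x * e' → Commute h e' := by
      intro e' he' hc
      rcases hR e' he' hc with rfl | rfl | rfl | rfl
      · exact Commute.one_right h
      · exact hhz
      · exact hhx
      · exact Commute.mul_right hhz hhx
    by_cases hc : e * x = x * e
    · exact (hk e he hc).eq.symm
    · obtain ⟨t', ht', rfl⟩ := hsplit e he hc
      have h1 : Commute h q0 := by
        show h * q0 = q0 * h
        rw [← mul_inv_eq_iff_eq_mul]; exact hqt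
      have h2 : Commute h t' := by
        rcases ht' with rfl | rfl | rfl | rfl
        · exact Commute.one_right h
        · exact hhz
        · exact hhx
        · exact Commute.mul_right hhz hhx
      exact (h1.mul_right h2).eq.symm
  have := S.isPGroup z ⟨h, S.hC hmem⟩
  obtain ⟨k, hk⟩ := this
  have hk' : h ^ 2 ^ k = 1 := by simpa using congrArg Subtype.val hk
  rw [← orderOf_eq_one_iff]
  have h1 := orderOf_dvd_of_pow_eq_one hk'
  have h2 := orderOf_dvd_of_pow_eq_one hh
  exact Nat.eq_one_of_dvd_coprimes ((Nat.coprime_two_left.2 hn).pow_left k) h1 h2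

/-- A singular element of `Q z` is orthogonal to `z`. -/
theorem mem_Q_of_mem {x : G} (hx : S.Singular x) (hxE : x ∈ S.Q S.z) : S.z ∈ S.Q x := by
  by_contra hzn
  set z := S.z with hz
  have d := S.data_z
  have dx := S.data hx
  have hx1 : x ≠ 1 := S.ne_one hx
  have hx2 : x * x = 1 := S.sq_singular hx
  have hxz : x ≠ z := fun h => hzn (by rw [h]; exact S.z_mem)
  have hzx : z * x = x * z := d.comm x hxE
  obtain ⟨q0, hq0, hq0x⟩ := d.exists_conj_mul hxE hx1 hxz
  have hzinv : z⁻¹ = z := d.inv_eq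
  have hX : ∀ c ∈ Subgroup.zpowers x, ∀ y : G, y * x = x * y → y * c = c * y := by
    intro c hc y hy
    rcases (mem_zpowers_two hx2).1 hc with rfl | rfl
    · rw [mul_one, one_mul]
    · exact hy
  -- (ii)
  have hkey : ∀ u ∈ S.Q x, z * u * z⁻¹ * u⁻¹ ∈ Subgroup.zpowers x → z * u = u * z := by
    intro u hu hc
    rcases (mem_zpowers_two hx2).1 hc with h | h
    · exact mul_inv_eq_iff_eq_mul.1 (mul_inv_eq_one.1 h)
    · exfalso
      have hux : u * x = x * u := S.comm_of_mem hu
      have h1 : u * z * u⁻¹ = z * x := by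
        calc u * z * u⁻¹ = z * (z * u * z⁻¹ * u⁻¹) * (z * z) := by
              rw [d.sq, mul_one, hzinv, show z * (z * u * z * u⁻¹) = (z * z) * (u * z * u⁻¹) by
                group, d.sq, one_mul]
          _ = z * x := by rw [h, d.sq, mul_one]
      have h2 : z ∈ S.Q (z * x) := by
        have h3 := S.mem_Q_conj (g := u) (mul_mem S.z_mem hxE)
        rw [h1, show u * (z * x) * u⁻¹ = z by
          rw [show u * (z * x) * u⁻¹ = (u * z * u⁻¹) * (u * x * u⁻¹) by group, h1, hux,
            mul_inv_cancel_right, mul_assoc, hx2, mul_one]] at h3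
        exact h3
      have h4 := S.mem_Q_conj (g := q0⁻¹) h2
      rw [show q0⁻¹ * z * q0⁻¹⁻¹ = z by
          rw [inv_inv, ← d.comm q0⁻¹ (inv_mem hq0), inv_mul_cancel_right],
        show q0⁻¹ * (z * x) * q0⁻¹⁻¹ = x by rw [hzx, ← hq0x]; group] at h4
      exact hzn h4
  -- (i)
  have hR0 : ∀ r ∈ S.Q z, r * x = x * r → ∀ y, y ∈ S.Q x → y * x = x * y → y ∈ S.Q z →
      r * y = y * r := by
    intro r hr hrx y hy hyx hyE
    rcases S.conj_eq S.singular_z hr hyE with h | h
    · exact mul_inv_eq_iff_eq_mul.1 h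
    · exfalso
      have h1 := S.conj_mem hrx hy
      rw [h] at h1
      exact hzn (by simpa using mul_mem (inv_mem hy) h1)
  have hfour : ∀ y ∈ S.Q z, y * x = x * y → (∀ r ∈ S.Q z, r * x = x * r → r * y = y * r) →
      y = 1 ∨ y = z ∨ y = x ∨ y = z * x := by
    intro y hy hyx hall
    by_contra hA
    obtain ⟨q, hq, hqA, hqy⟩ := exists_sep d (A := four z x d.sq hx2 hzx.symm)
      (Or.inr (Or.inl rfl)) (by
        rintro w (rfl | rfl | rfl | rfl)
        · exact one_mem _
        · exact S.z_mem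
        · exact hxE
        · exact mul_mem S.z_mem hxE) hy hA
    rw [hall q hq (hqA x (Or.inr (Or.inr (Or.inl rfl)))), mul_inv_cancel_right] at hqy
    exact d.ne_one (left_eq_mul.1 hqy)
  have hint : ∀ y ∈ S.Q z, y ∈ S.Q x → y ∈ Subgroup.zpowers x := by
    intro y hyE hyx
    have hc := S.comm_of_mem hyx
    rcases hfour y hyE hc (fun r hr hrx => hR0 r hr hrx y hyx hc hyE) with h | h | h | h
    · rw [h]; exact one_mem _
    · exact absurd (h ▸ hyx) hzn
    · rw [h]; exact Subgroup.mem_zpowers _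
    · exfalso
      rw [h] at hyx
      exact hzn (by simpa using mul_mem hyx (inv_mem (S.self_mem hx)))
  -- (iii)
  have h3 : ∀ u ∈ S.Q x, z * u = u * z → ∀ r ∈ S.Q z, r * x = x * r →
      u * r * u⁻¹ * r⁻¹ ∈ Subgroup.zpowers x := by
    intro u hu huz r hr hrx
    refine hint _ (mul_mem (S.conj_mem huz.symm hr) (inv_mem hr)) ?_
    have := mul_mem hu (S.conj_mem hrx (inv_mem hu))
    rwa [show u * (r * u⁻¹ * r⁻¹) = u * r * u⁻¹ * r⁻¹ by group] at this
  -- (iv)
  have h4 : ∀ u ∈ S.Q x, ∀ r ∈ S.Q z, r * x = x * r →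
      z * (r * u * r⁻¹ * u⁻¹) = (r * u * r⁻¹ * u⁻¹) * z := by
    intro u hu r hr hrx
    set w := u * r * u⁻¹ * r⁻¹ with hw
    have hwmem : w ∈ S.Q x := by
      have := mul_mem hu (S.conj_mem hrx (inv_mem hu))
      rwa [show u * (r * u⁻¹ * r⁻¹) = w by rw [hw]; group] at this
    set w0 := z * u * z⁻¹ * u⁻¹ with hw0
    have hw0mem : w0 ∈ S.Q x := mul_mem (S.conj_mem hzx hu) (inv_mem hu)
    have hw0z : z * w0 = w0 * z := by
      refine hkey _ hw0mem ?_
      have he : z * w0 * z⁻¹ * w0⁻¹ = (w0 * w0)⁻¹ := by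
        have : z * w0 * z⁻¹ = w0⁻¹ := by
          rw [hw0, hzinv]
          calc z * (z * u * z * u⁻¹) * z = (z * z) * u * z * u⁻¹ * z := by group
            _ = u * z * u⁻¹ * z := by rw [d.sq, one_mul]
            _ = (z * u * z * u⁻¹)⁻¹ := by simp [mul_assoc, hzinv]
        rw [this]
        exact (mul_inv_rev w0 w0).symm
      rw [he]
      exact inv_mem ((mem_zpowers_two hx2).2 (S.sq_mem hx hw0mem))
    have hwz : z * w = w * z := by
      refine hkey _ hwmem ?_
      have hrz : r * z = z * r := S.comm_of_mem hr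
      have e1 : z * r * z⁻¹ = r := by rw [← hrz, mul_inv_cancel_right]
      have e2 : z * w * z⁻¹ = (w0 * w * w0⁻¹) * (w0 * r * w0⁻¹ * r⁻¹) := by
        calc z * w * z⁻¹ = (z * u * z⁻¹) * (z * r * z⁻¹) * (z * u * z⁻¹)⁻¹ * (z * r * z⁻¹)⁻¹ := by
              rw [hw]; group
          _ = (w0 * u) * r * (w0 * u)⁻¹ * r⁻¹ := by
              rw [e1, show z * u * z⁻¹ = w0 * u by rw [hw0]; group]
          _ = _ := by rw [hw]; group
      have hc1 : w0 * r * w0⁻¹ * r⁻¹ ∈ Subgroup.zpowers x := h3 w0 hw0mem hw0z r hr hrx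
      have hc2 : w0 * w * w0⁻¹ * w⁻¹ ∈ Subgroup.zpowers x := by
        rcases S.conj_eq hx hw0mem hwmem with h | h
        · rw [h, mul_inv_cancel]; exact one_mem _
        · rw [h, S.comm_of_mem hwmem, mul_inv_cancel_right]; exact Subgroup.mem_zpowers _
      have hcw := hX _ hc1 w (S.comm_of_mem hwmem)
      have : z * w * z⁻¹ * w⁻¹
          = (w0 * w * w0⁻¹ * w⁻¹) * (w0 * r * w0⁻¹ * r⁻¹) := by
        calc z * w * z⁻¹ * w⁻¹ = (w0 * w * w0⁻¹ * w⁻¹) * (w * (w0 * r * w0⁻¹ * r⁻¹)) * w⁻¹ := by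
              rw [e2]; group
          _ = _ := by rw [hcw]; group
      rw [this]
      exact mul_mem hc2 hc1
    rw [show r * u * r⁻¹ * u⁻¹ = w⁻¹ by rw [hw]; group]
    exact (Commute.inv_right (show Commute z w from hwz)).eq
  -- (v)
  by_cases hab : ∀ r ∈ S.Q z, r * x = x * r → ∀ s ∈ S.Q z, s * x = x * s → r * s = s * r
  · -- (vi)
    have hR : ∀ r ∈ S.Q z, r * x = x * r → r = 1 ∨ r = z ∨ r = x ∨ r = z * x :=
      fun r hr hrx => hfour r hr hrx (fun q hq hqx => hab q hq hqx r hr hrx)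
    have hCz : ∀ c : G, c * z = z * c → ∃ k : ℕ, c ^ 2 ^ k = 1 := by
      intro c hc
      obtain ⟨k, m, hm, hkm⟩ := Nat.exists_eq_two_pow_mul_odd (orderOf_pos c).ne'
      refine ⟨k, S.odd_eq_one hxE hx2 hx1 hxz hR ((show Commute c z from hc).pow_left _).eq hm ?_⟩
      rw [← pow_mul, ← hkm, pow_orderOf_eq_one]
    obtain ⟨g, hg⟩ := hx
    refine hzn (S.le_Q (Subgroup.centralizer ({x} : Set G))
      (fun c hc => Subgroup.mem_centralizer_singleton_iff.1 hc) ?_ ?_
      (Subgroup.mem_centralizer_singleton_iff.2 hzx))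
    · rintro ⟨c, hc⟩
      have hc' := Subgroup.mem_centralizer_singleton_iff.1 hc
      have h1 : g⁻¹ * c * g * z = z * (g⁻¹ * c * g) := by
        calc g⁻¹ * c * g * z = g⁻¹ * (c * (g * z * g⁻¹)) * g := by group
          _ = g⁻¹ * ((g * z * g⁻¹) * c) * g := by rw [hg, hc']
          _ = z * (g⁻¹ * c * g) := by group
      obtain ⟨k, hk⟩ := hCz _ h1
      refine ⟨k, Subtype.ext ?_⟩
      have : (g⁻¹ * c * g⁻¹⁻¹) ^ 2 ^ k = 1 := by rwa [inv_inv]
      rw [conj_pow, conj_eq_one_iff] at this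
      simpa using this
    · intro c hc n hn
      exact mul_mem (mul_mem (Subgroup.mem_centralizer_singleton_iff.2 hc) hn)
        (inv_mem (Subgroup.mem_centralizer_singleton_iff.2 hc))
  · push Not at hab
    obtain ⟨r, hr, hrx, s, hs, hsx, hne⟩ := hab
    have hall : ∀ u ∈ S.Q x, z * u = u * z := by
      intro u hu
      refine hkey u hu ?_
      set vr := r * u * r⁻¹ * u⁻¹ with hvr
      set vs := s * u * s⁻¹ * u⁻¹ with hvs
      have hvrm : vr ∈ S.Q x := mul_mem (S.conj_mem hrx hu) (inv_mem hu)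
      have hvsm : vs ∈ S.Q x := mul_mem (S.conj_mem hsx hu) (inv_mem hu)
      set c1 := s * vr * s⁻¹ * vr⁻¹ with hc1
      set c2 := r * vs * r⁻¹ * vs⁻¹ with hc2
      set e := vs * vr * vs⁻¹ * vr⁻¹ with he
      have hc1m : c1 ∈ Subgroup.zpowers x := by
        have := inv_mem (h3 vr hvrm (h4 u hu r hr hrx) s hs hsx)
        rwa [show (vr * s * vr⁻¹ * s⁻¹)⁻¹ = c1 by rw [hc1]; group] at this
      have hc2m : c2 ∈ Subgroup.zpowers x := by
        have := inv_mem (h3 vs hvsm (h4 u hu s hs hsx) r hr hrx)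
        rwa [show (vs * r * vs⁻¹ * r⁻¹)⁻¹ = c2 by rw [hc2]; group] at this
      have hem : e ∈ Subgroup.zpowers x := by
        rw [he]
        rcases S.conj_eq hx hvsm hvrm with h | h
        · rw [h, mul_inv_cancel]; exact one_mem _
        · rw [h, S.comm_of_mem hvrm, mul_inv_cancel_right]; exact Subgroup.mem_zpowers _
      set d' := c2 * e * c1⁻¹ with hd
      have hdm : d' ∈ Subgroup.zpowers x := mul_mem (mul_mem hc2m hem) (inv_mem hc1m)
      have hrs : r * s * u * (r * s)⁻¹ = d' * (s * r * u * (s * r)⁻¹) := by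
        simp only [hd, hc1, hc2, he, hvr, hvs]; group
      have hsr : r * s = s * r * z := (d.bracket r hr s hs).resolve_left hne
      have hsrx : (s * r) * x = x * (s * r) := by
        rw [mul_assoc, hrx, ← mul_assoc, hsx, mul_assoc]
      have hd2 : (s * r)⁻¹ * d' * (s * r) = d' := by
        rw [mul_assoc, ← hX d' hdm _ hsrx, inv_mul_cancel_left]
      have hfin : z * u * z⁻¹ * u⁻¹ = d' := by
        calc z * u * z⁻¹ * u⁻¹ = (s * r)⁻¹ * (s * r * z * u * (s * r * z)⁻¹) * (s * r) * u⁻¹ := by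
              group
          _ = (s * r)⁻¹ * d' * (s * r) := by rw [← hsr, hrs]; group
          _ = d' := hd2
      rw [hfin]; exact hdm
    rcases S.central_eq hx hall with h | h
    · exact d.ne_one h
    · exact hxz h.symm

/-- Orthogonality is symmetric. -/
theorem symm {x y : G} (hx : S.Singular x) (hy : S.Singular y) (h : x ∈ S.Q y) : y ∈ S.Q x := by
  obtain ⟨g, rfl⟩ := hy
  have h1 := S.mem_Q_conj (g := g⁻¹) h
  rw [show g⁻¹ * (g * S.z * g⁻¹) * g⁻¹⁻¹ = S.z by group] at h1
  have h2 := S.mem_Q_conj (g := g) (S.mem_Q_of_mem (Setup.Singular.conj hx g⁻¹) h1)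
  rwa [show g * (g⁻¹ * x * g⁻¹⁻¹) * g⁻¹ = x by group] at h2

end Setup

end Cfsg.Agent.SingularInvol
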