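import Cfsg.Agent.SingularInvol.Base

/-!
The radical join of a singular subgroup and its action.
-/

set_option autoImplicit false

namespace Cfsg.Agent.SingularInvol

open CfsgLib.LargeEx

variable {G : Type*} [Group G]

/-- A singular subgroup. -/
structure SingSub [Finite G] (S : Setup G) (U : Subgroup G) : Prop where
  sq : ∀ u ∈ U, u * u = 1
  sing : ∀ u ∈ U, u ≠ 1 → S.Singular u
  orth : ∀ u ∈ U, ∀ v ∈ U, u ≠ 1 → v ≠ 1 → v ∈ S.Q u

variable [Finite G] {S : Setup G} {U : Subgroup G}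

theorem SingSub.inv_eq (hU : SingSub S U) {u : G} (hu : u ∈ U) : u⁻¹ = u :=
  inv_eq_of_mul_eq_one_right (hU.sq u hu)

theorem SingSub.comm (hU : SingSub S U) {u v : G} (hu : u ∈ U) (hv : v ∈ U) : u * v = v * u := by
  have h := hU.inv_eq (mul_mem hu hv)
  rw [mul_inv_rev, hU.inv_eq hu, hU.inv_eq hv] at h
  exact h.symm

theorem SingSub.le_Q (hU : SingSub S U) {u : G} (hu : u ∈ U) (hu1 : u ≠ 1) : U ≤ S.Q u := by
  intro v hv
  by_cases hv1 : v = 1
  · rw [hv1]; exact one_mem _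
  · exact hU.orth u hu v hv hu1 hv1

theorem SingSub.joint_mem (hU : SingSub S U) {T : Set G} (hT : Subgroup.closure T = U) {x : G}
    (hx : ∀ t ∈ T, x ∈ S.Q t) {u : G} (hu : u ∈ U) (hu1 : u ≠ 1) : x ∈ S.Q u := by
  suffices h : u ∈ U ∧ (u = 1 ∨ x ∈ S.Q u) from h.2.resolve_left hu1
  subst hT
  clear hu1
  induction hu using Subgroup.closure_induction with
  | mem y hy => exact ⟨Subgroup.subset_closure hy, Or.inr (hx y hy)⟩
  | one => exact ⟨one_mem _, Or.inl rfl⟩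
  | inv a _ ha => rw [hU.inv_eq ha.1]; exact ha
  | mul a b _ _ ha hb =>
    refine ⟨mul_mem ha.1 hb.1, ?_⟩
    rcases ha.2 with h | h
    · rw [h, one_mul]; exact hb.2
    by_cases ha1 : a = 1
    · rw [ha1, one_mul]; exact hb.2
    rcases hb.2 with h' | -
    · rw [h', mul_one]; exact ha.2
    by_cases hb1 : b = 1
    · rw [hb1, mul_one]; exact ha.2
    by_cases hab : a * b = 1
    · exact Or.inl hab
    right
    have hbQ := hU.orth a ha.1 b hb.1 ha1 hb1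
    have hne : b ≠ a := fun h1 => hab (by rw [h1]; exact hU.sq a ha.1)
    obtain ⟨q, hq, hqb⟩ := (S.data (hU.sing a ha.1 ha1)).exists_conj_mul hbQ hb1 hne
    rw [← hU.comm hb.1 ha.1]
    have hxb : x ∈ S.Q b := by
      rcases hb.2 with h' | h'
      · exact absurd h' hb1
      · exact h'
    have h1 := S.mem_Q_conj (g := q) hxb
    rw [hqb] at h1
    rcases S.conj_eq (hU.sing a ha.1 ha1) hq h with h2 | h2
    · rwa [h2] at h1
    · rw [h2] at h1
      have hne1 : b * a ≠ 1 := by rw [hU.comm hb.1 ha.1]; exact hab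
      have h3 := mul_mem h1 (inv_mem (hU.orth _ (mul_mem hb.1 ha.1) a ha.1 hne1 ha1))
      rwa [mul_inv_cancel_right] at h3

theorem mem_bigInf {x : G} :
    x ∈ (⨅ u ∈ ((U : Set G) \ {1}), S.Q u) ↔ ∀ u ∈ U, u ≠ 1 → x ∈ S.Q u := by
  simp [Subgroup.mem_iInf, Set.mem_diff]

theorem Q_le_bigSup {u : G} (hu : u ∈ U) (hu1 : u ≠ 1) :
    S.Q u ≤ ⨆ u ∈ ((U : Set G) \ {1}), S.Q u :=
  le_biSup S.Q (⟨hu, hu1⟩ : u ∈ ((U : Set G) \ {1}))

theorem SingSub.le_bigInf (hU : SingSub S U) : U ≤ ⨅ u ∈ ((U : Set G) \ {1}), S.Q u :=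
  fun _ hv => mem_bigInf.2 fun _ hu hu1 => hU.le_Q hu hu1 hv

theorem SingSub.conj_mem (hU : SingSub S U) {u q v : G} (hu : u ∈ U) (hu1 : u ≠ 1)
    (hq : q ∈ S.Q u) (hv : v ∈ U) : q * v * q⁻¹ ∈ U := by
  rcases S.conj_eq (hU.sing u hu hu1) hq (hU.le_Q hu hu1 hv) with h | h
  · rw [h]; exact hv
  · rw [h]; exact mul_mem hv hu

theorem SingSub.bigSup_le_normalizer (hU : SingSub S U) :
    (⨆ u ∈ ((U : Set G) \ {1}), S.Q u) ≤ Subgroup.normalizer (U : Set G) := by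
  refine iSup₂_le fun u hu q hq => Subgroup.mem_normalizer_iff.2 fun v => ⟨fun hv => ?_, fun hv => ?_⟩
  · exact hU.conj_mem hu.1 hu.2 hq hv
  · have := hU.conj_mem hu.1 hu.2 (inv_mem hq) hv
    simpa [mul_assoc] using this

theorem SingSub.commutator_mem (hU : SingSub S U) {g : G}
    (hg : g ∈ ⨆ u ∈ ((U : Set G) \ {1}), S.Q u) :
    ∀ x ∈ ⨅ u ∈ ((U : Set G) \ {1}), S.Q u, g * x * g⁻¹ * x⁻¹ ∈ U := by
  let K : Subgroup G :=
    { carrier := {g | g ∈ Subgroup.normalizer (U : Set G) ∧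
        ∀ x ∈ ⨅ u ∈ ((U : Set G) \ {1}), S.Q u, g * x * g⁻¹ * x⁻¹ ∈ U}
      one_mem' := ⟨one_mem _, fun x _ => by simp⟩
      mul_mem' := by
        rintro a b ⟨ha, ha'⟩ ⟨hb, hb'⟩
        refine ⟨mul_mem ha hb, fun x hx => ?_⟩
        have h1 := (Subgroup.mem_normalizer_iff.1 ha _).1 (hb' x hx)
        have h2 := mul_mem h1 (ha' x hx)
        rwa [show a * (b * x * b⁻¹ * x⁻¹) * a⁻¹ * (a * x * a⁻¹ * x⁻¹)
          = a * b * x * (a * b)⁻¹ * x⁻¹ by group] at h2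
      inv_mem' := by
        rintro a ⟨ha, ha'⟩
        refine ⟨inv_mem ha, fun x hx => ?_⟩
        have h1 := (Subgroup.mem_normalizer_iff.1 (inv_mem ha) _).1 (inv_mem (ha' x hx))
        rwa [show a⁻¹ * (a * x * a⁻¹ * x⁻¹)⁻¹ * a⁻¹⁻¹ = a⁻¹ * x * a⁻¹⁻¹ * x⁻¹ by group] at h1 }
  have hle : (⨆ u ∈ ((U : Set G) \ {1}), S.Q u) ≤ K := by
    refine iSup₂_le fun u hu q hq => ⟨hU.bigSup_le_normalizer (Q_le_bigSup hu.1 hu.2 hq),
      fun x hx => ?_⟩
    have hxQ := mem_bigInf.1 hx u hu.1 hu.2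
    rcases S.conj_eq (hU.sing u hu.1 hu.2) hq hxQ with h | h
    · rw [h, mul_inv_cancel]; exact one_mem _
    · rw [h, S.comm_of_mem hxQ, mul_inv_cancel_right]; exact hu.1
  exact (hle hg).2

theorem SingSub.transitive (hU : SingSub S U) {x : G}
    (hx : x ∈ ⨅ u ∈ ((U : Set G) \ {1}), S.Q u) (hxU : x ∉ U) {u : G} (hu : u ∈ U) :
    ∃ g ∈ (⨆ u ∈ ((U : Set G) \ {1}), S.Q u) ⊓ Subgroup.centralizer (U : Set G),
      g * x * g⁻¹ = x * u := by
  by_cases hu1 : u = 1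
  · exact ⟨1, one_mem _, by simp [hu1]⟩
  obtain ⟨q, hq, hqc, hqx⟩ := exists_sep (S.data (hU.sing u hu hu1)) hu (hU.le_Q hu hu1)
    (mem_bigInf.1 hx u hu hu1) hxU
  exact ⟨q, ⟨Q_le_bigSup hu hu1 hq,
    Subgroup.mem_centralizer_iff.2 fun a ha => (hqc a ha).symm⟩, hqx⟩

theorem SingSub.exists_conj (hU : SingSub S U) (φ : ↥U ≃* ↥U) :
    ∃ g ∈ ⨆ u ∈ ((U : Set G) \ {1}), S.Q u, ∀ u : ↥U, g * (u : G) * g⁻¹ = ((φ u : ↥U) : G) := by
  set LU := ⨆ u ∈ ((U : Set G) \ {1}), S.Q u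
  let F : ↥U →* G := U.subtype.comp φ.toMonoidHom
  let C : G → (↥U →* G) := fun g => (MulAut.conj g).toMonoidHom.comp U.subtype
  suffices h : ∀ k : ℕ, ∀ g ∈ LU, Nat.card U - Nat.card ((C g).eqLocus F) ≤ k →
      ∃ g' ∈ LU, ∀ u : ↥U, g' * (u : G) * g'⁻¹ = ((φ u : ↥U) : G) from
    h _ 1 (one_mem _) le_rfl
  intro k
  induction k using Nat.strong_induction_on with
  | _ k ih =>
  intro g hg hk
  set L := (C g).eqLocus F with hL
  by_cases htop : ∀ u : ↥U, u ∈ L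
  · exact ⟨g, hg, fun u => htop u⟩
  push Not at htop
  obtain ⟨v, hv⟩ := htop
  have hcU : ∀ a : ↥U, g * (a : G) * g⁻¹ ∈ U := fun a =>
    (Subgroup.mem_normalizer_iff.1 (hU.bigSup_le_normalizer hg) a).1 a.2
  set c := g * (v : G) * g⁻¹ with hc
  set w := ((φ v : ↥U) : G) with hw
  have hcw : c ≠ w := hv
  set u := c * w with hu
  have hcm : c ∈ U := hcU v
  have hwm : w ∈ U := (φ v).2
  have hum : u ∈ U := mul_mem hcm hwm
  have hu1 : u ≠ 1 := fun h => hcw (by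
    rw [hu] at h; rw [← hU.inv_eq hwm]; exact eq_inv_of_mul_eq_one_left h)
  set W := L.map F with hW
  have hWU : W ≤ U := by
    rintro _ ⟨a, -, rfl⟩
    exact (φ a).2
  have hwW : w ∉ W := by
    rintro ⟨a, ha, hav⟩
    have : a = v := φ.injective (Subtype.ext hav)
    exact hv (this ▸ ha)
  have hcW : c ∉ W := by
    rintro ⟨a, ha, hav⟩
    have h1 : g * (a : G) * g⁻¹ = g * (v : G) * g⁻¹ := (show _ = F a from ha).trans hav
    have : a = v := Subtype.ext (mul_left_cancel (mul_right_cancel h1))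
    exact hv (this ▸ ha)
  let A : Subgroup G :=
    { carrier := {y | y ∈ U ∧ (y ∈ W ∨ y * u ∈ W)}
      one_mem' := ⟨one_mem _, Or.inl (one_mem _)⟩
      inv_mem' := by
        rintro y ⟨hy, hy'⟩
        rw [hU.inv_eq hy]
        exact ⟨hy, hy'⟩
      mul_mem' := by
        rintro y y' ⟨hy, hy1⟩ ⟨hy', hy2⟩
        refine ⟨mul_mem hy hy', ?_⟩
        rcases hy1 with h1 | h1 <;> rcases hy2 with h2 | h2
        · exact Or.inl (mul_mem h1 h2)
        · right; rw [mul_assoc]; exact mul_mem h1 h2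
        · right
          rw [mul_assoc, hU.comm hy' hum, ← mul_assoc]; exact mul_mem h1 h2
        · left
          have h := mul_mem h1 h2
          rwa [show y * u * (y' * u) = y * y' by
            rw [mul_assoc, ← mul_assoc u, hU.comm hum hy', mul_assoc y', hU.sq u hum, mul_one]] at h }
  have hAU : A ≤ U := fun y hy => hy.1
  have huA : u ∈ A := ⟨hum, Or.inr (by rw [hU.sq u hum]; exact one_mem _)⟩
  have hcA : c ∉ A := by
    rintro ⟨-, h | h⟩
    · exact hcW h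
    · rw [hu, ← mul_assoc, hU.sq c hcm, one_mul] at h
      exact hwW h
  obtain ⟨q, hq, hqA, hqc⟩ := exists_sep (S.data (hU.sing u hum hu1)) huA
    (hAU.trans (hU.le_Q hum hu1)) (hU.le_Q hum hu1 hcm) hcA
  have hqc' : q * c * q⁻¹ = w := by rw [hqc, hu, ← mul_assoc, hU.sq c hcm, one_mul]
  have hqL : q ∈ LU := Q_le_bigSup hum hu1 hq
  have hlt : L < (C (q * g)).eqLocus F := by
    refine lt_of_le_of_ne (fun a ha => ?_) (fun heq => hv ?_)
    · have h1 : g * (a : G) * g⁻¹ = F a := ha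
      show q * g * (a : G) * (q * g)⁻¹ = F a
      rw [show q * g * (a : G) * (q * g)⁻¹ = q * (g * (a : G) * g⁻¹) * q⁻¹ by group, h1,
        hqA (F a) ⟨(φ a).2, Or.inl ⟨a, ha, rfl⟩⟩, mul_inv_cancel_right]
    · rw [heq]
      show q * g * (v : G) * (q * g)⁻¹ = F v
      rw [show q * g * (v : G) * (q * g)⁻¹ = q * c * q⁻¹ by rw [hc]; group, hqc']
      rfl
  have hcard : Nat.card L < Nat.card ((C (q * g)).eqLocus F) := by
    refine lt_of_le_of_ne (Subgroup.card_le_of_le hlt.le) (fun h5 => ?_)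
    exact hlt.ne (Subgroup.eq_of_le_of_card_ge hlt.le h5.ge)
  have hle : Nat.card ((C (q * g)).eqLocus F) ≤ Nat.card U := Subgroup.card_le_card_group _
  exact ih (Nat.card U - Nat.card ((C (q * g)).eqLocus F)) (by omega) (q * g) (mul_mem hqL hg)
    le_rfl

end Cfsg.Agent.SingularInvol
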