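import Mathlib
import Cfsg.Agent.LargeEx.Basic
import Cfsg.Agent.Components.Cores

/-!
Basic facts on singular involutions in a group with a large extraspecial 2-subgroup.
-/

set_option autoImplicit false

namespace Cfsg.Agent.SingularInvol

open CfsgLib.LargeEx

variable {G : Type*} [Group G]

/-- The hypotheses. -/
structure Setup (G : Type*) [Group G] [Finite G] where
  Q : G → Subgroup G
  z : G
  hQ : ∀ x : G, Q x = (Cfsg.pCore 2 ↥(Subgroup.centralizer ({x} : Set G))).map
    (Subgroup.centralizer ({x} : Set G)).subtype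
  hz : orderOf z = 2
  hE : Cfsg.IsExtraspecial 2 ↥(Q z)
  hC : Subgroup.centralizer ((Q z : Subgroup G) : Set G) ≤ Q z

variable [Finite G]

/-- A conjugate of `z`. -/
def Setup.Singular (S : Setup G) (x : G) : Prop := ∃ g : G, g * S.z * g⁻¹ = x

namespace Setup

variable (S : Setup G)

theorem comm_of_mem {x y : G} (hy : y ∈ S.Q x) : y * x = x * y := by
  rw [S.hQ] at hy
  obtain ⟨⟨c, hc⟩, -, rfl⟩ := hy
  exact Subgroup.mem_centralizer_singleton_iff.1 hc

theorem isPGroup (x : G) : IsPGroup 2 (S.Q x) := by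
  rw [S.hQ]
  exact (CfsgLib.LargeEx.isPGroup_pCore 2).map _

theorem conj_mem {x c y : G} (hc : c * x = x * c) (hy : y ∈ S.Q x) : c * y * c⁻¹ ∈ S.Q x := by
  rw [S.hQ] at hy ⊢
  obtain ⟨w, hw, rfl⟩ := hy
  exact ⟨⟨c, Subgroup.mem_centralizer_singleton_iff.2 hc⟩ * w *
    ⟨c, Subgroup.mem_centralizer_singleton_iff.2 hc⟩⁻¹,
    (CfsgLib.LargeEx.pCore_normal 2).conj_mem _ hw _, by simp⟩

/-- Maximality of `Q x`. -/
theorem le_Q {x : G} (N : Subgroup G) (hN : ∀ n ∈ N, n * x = x * n) (hp : IsPGroup 2 N)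
    (hn : ∀ c : G, c * x = x * c → ∀ n ∈ N, c * n * c⁻¹ ∈ N) : N ≤ S.Q x := by
  intro y hy
  set C := Subgroup.centralizer ({x} : Set G)
  have hle : N ≤ C := fun n hn' => Subgroup.mem_centralizer_singleton_iff.2 (hN n hn')
  have hnor : (N.subgroupOf C).Normal := ⟨fun n hn' c => Subgroup.mem_subgroupOf.2
    (hn c (Subgroup.mem_centralizer_singleton_iff.1 c.2) n (Subgroup.mem_subgroupOf.1 hn'))⟩
  have hp' : IsPGroup 2 (N.subgroupOf C) :=
    hp.of_equiv (Subgroup.subgroupOfEquivOfLe hle).symm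
  rw [S.hQ]
  exact ⟨⟨y, hle hy⟩, CfsgLib.Components.le_pCore hnor hp' (Subgroup.mem_subgroupOf.2 hy), rfl⟩

theorem conj_Q_aux (g x : G) : (S.Q x).map (MulAut.conj g).toMonoidHom ≤ S.Q (g * x * g⁻¹) := by
  refine S.le_Q _ ?_ ((S.isPGroup x).map _) ?_
  · rintro _ ⟨n, hn, rfl⟩
    have h := S.comm_of_mem hn
    show g * n * g⁻¹ * (g * x * g⁻¹) = g * x * g⁻¹ * (g * n * g⁻¹)
    calc g * n * g⁻¹ * (g * x * g⁻¹) = g * (n * x) * g⁻¹ := by group
      _ = g * (x * n) * g⁻¹ := by rw [h]
      _ = g * x * g⁻¹ * (g * n * g⁻¹) := by group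
  · rintro c hc _ ⟨n, hn, rfl⟩
    have hc' : g⁻¹ * c * g * x = x * (g⁻¹ * c * g) := by
      have := congrArg (fun t => g⁻¹ * t * g) hc
      simpa [mul_assoc] using this
    refine ⟨_, S.conj_mem hc' hn, ?_⟩
    show g * (g⁻¹ * c * g * n * (g⁻¹ * c * g)⁻¹) * g⁻¹ = c * (g * n * g⁻¹) * c⁻¹
    group

theorem mem_Q_conj {g x y : G} (hy : y ∈ S.Q x) : g * y * g⁻¹ ∈ S.Q (g * x * g⁻¹) :=
  S.conj_Q_aux g x ⟨y, hy, rfl⟩

theorem mem_conj_iff {g x y : G} : g * y * g⁻¹ ∈ S.Q (g * x * g⁻¹) ↔ y ∈ S.Q x := by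
  refine ⟨fun h => ?_, S.mem_Q_conj⟩
  have h' := S.mem_Q_conj (g := g⁻¹) h
  simpa [mul_assoc] using h'

theorem singular_z : S.Singular S.z := ⟨1, by simp⟩

theorem Singular.conj {S : Setup G} {x : G} (h : S.Singular x) (g : G) :
    S.Singular (g * x * g⁻¹) := by
  obtain ⟨k, rfl⟩ := h
  exact ⟨g * k, by group⟩

theorem z_mem : S.z ∈ S.Q S.z := by
  refine S.le_Q (Subgroup.zpowers S.z) (fun n hn => ?_) ?_ ?_ (Subgroup.mem_zpowers _)
  · obtain ⟨k, rfl⟩ := hn
    exact ((Commute.refl S.z).zpow_left k).eq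
  · exact IsPGroup.of_card (n := 1) (by rw [Nat.card_zpowers, S.hz, pow_one])
  · rintro c hc _ ⟨k, rfl⟩
    refine ⟨k, ?_⟩
    show S.z ^ k = c * S.z ^ k * c⁻¹
    rw [((show Commute c S.z from hc).zpow_right k).eq, mul_inv_cancel_right]

theorem data_z : ExtraData (S.Q S.z) S.z := by
  obtain ⟨w, hw⟩ := exists_extraData S.hE
  have hzc : ∀ y ∈ S.Q S.z, S.z * y = y * S.z := fun y hy => (S.comm_of_mem hy).symm
  rcases hw.central S.z S.z_mem hzc with h | h
  · exact absurd h (fun h1 => by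
      have := S.hz
      rw [h1, orderOf_one] at this
      norm_num at this)
  · exact h ▸ hw

/-- Elements commuting with the whole of `Q x`. -/
theorem central_eq {x : G} (hx : S.Singular x) {c : G} (hc : ∀ y ∈ S.Q x, c * y = y * c) :
    c = 1 ∨ c = x := by
  obtain ⟨g, rfl⟩ := hx
  have h1 : g⁻¹ * c * g ∈ Subgroup.centralizer ((S.Q S.z : Subgroup G) : Set G) := by
    rw [Subgroup.mem_centralizer_iff]
    intro y hy
    have h := hc _ (S.mem_Q_conj (g := g) hy)
    have := congrArg (fun t => g⁻¹ * t * g) h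
    simpa [mul_assoc] using this.symm
  rcases S.data_z.central _ (S.hC h1) (fun y hy => (Subgroup.mem_centralizer_iff.1 h1 y hy).symm)
    with h | h
  · exact Or.inl (by simpa [mul_assoc] using congrArg (fun t => g * t * g⁻¹) h)
  · exact Or.inr (by simpa [mul_assoc] using congrArg (fun t => g * t * g⁻¹) h)

theorem self_mem {x : G} (hx : S.Singular x) : x ∈ S.Q x := by
  obtain ⟨g, rfl⟩ := hx
  exact S.mem_Q_conj S.z_mem

theorem sq_singular {x : G} (hx : S.Singular x) : x * x = 1 := by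
  obtain ⟨g, rfl⟩ := hx
  rw [show g * S.z * g⁻¹ * (g * S.z * g⁻¹) = g * (S.z * S.z) * g⁻¹ by group, S.data_z.sq]
  group

theorem ne_one {x : G} (hx : S.Singular x) : x ≠ 1 := by
  obtain ⟨g, rfl⟩ := hx
  rw [Ne, conj_eq_one_iff]
  exact S.data_z.ne_one

theorem bracket {x : G} (hx : S.Singular x) {a b : G} (ha : a ∈ S.Q x) (hb : b ∈ S.Q x) :
    a * b = b * a ∨ a * b = b * a * x := by
  obtain ⟨g, rfl⟩ := hx
  have ha' : g⁻¹ * a * g ∈ S.Q S.z := by
    have := S.mem_Q_conj (g := g⁻¹) ha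
    simpa [mul_assoc] using this
  have hb' : g⁻¹ * b * g ∈ S.Q S.z := by
    have := S.mem_Q_conj (g := g⁻¹) hb
    simpa [mul_assoc] using this
  rcases S.data_z.bracket _ ha' _ hb' with h | h
  · exact Or.inl (by simpa [mul_assoc] using congrArg (fun t => g * t * g⁻¹) h)
  · exact Or.inr (by simpa [mul_assoc] using congrArg (fun t => g * t * g⁻¹) h)

theorem sq_mem {x : G} (hx : S.Singular x) {a : G} (ha : a ∈ S.Q x) :
    a * a = 1 ∨ a * a = x := by
  obtain ⟨g, rfl⟩ := hx
  have ha' : g⁻¹ * a * g ∈ S.Q S.z := by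
    have := S.mem_Q_conj (g := g⁻¹) ha
    simpa [mul_assoc] using this
  rcases S.data_z.sq_mem ha' with h | h
  · exact Or.inl (by simpa [mul_assoc] using congrArg (fun t => g * t * g⁻¹) h)
  · exact Or.inr (by simpa [mul_assoc] using congrArg (fun t => g * t * g⁻¹) h)

/-- A conjugation by an element of `Q x` multiplies by a power of `x`. -/
theorem conj_eq {x : G} (hx : S.Singular x) {a b : G} (ha : a ∈ S.Q x) (hb : b ∈ S.Q x) :
    a * b * a⁻¹ = b ∨ a * b * a⁻¹ = b * x := by
  have hax : x * a⁻¹ = a⁻¹ * x := (S.comm_of_mem (inv_mem ha)).symm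
  rcases S.bracket hx ha hb with h | h
  · left; rw [h, mul_inv_cancel_right]
  · right
    calc a * b * a⁻¹ = b * a * (x * a⁻¹) := by rw [h]; group
      _ = b * a * (a⁻¹ * x) := by rw [hax]
      _ = b * x := by group

theorem data {x : G} (hx : S.Singular x) : ExtraData (S.Q x) x := by
  have hself := S.self_mem hx
  refine
    { mem := hself
      ne_one := S.ne_one hx
      sq := S.sq_singular hx
      comm := fun y hy => (S.comm_of_mem hy).symm
      central := fun c _ hc => S.central_eq hx hc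
      bracket := fun a ha b hb => S.bracket hx ha hb
      center_eq := ?_
      nonabelian := ?_
      isPGroup := S.isPGroup x }
  · apply le_antisymm
    · rintro _ ⟨c, hc, rfl⟩
      rcases S.central_eq hx (c := (c : G)) (fun y hy =>
        (congrArg Subtype.val (Subgroup.mem_center_iff.1 hc ⟨y, hy⟩)).symm) with h | h
      · rw [Subgroup.coe_subtype, h]; exact one_mem _
      · rw [Subgroup.coe_subtype, h]; exact Subgroup.mem_zpowers _
    · rw [Subgroup.zpowers_le]
      exact ⟨⟨x, hself⟩, Subgroup.mem_center_iff.2 fun y =>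
        Subtype.ext (S.comm_of_mem y.2), rfl⟩
  · obtain ⟨g, rfl⟩ := hx
    obtain ⟨a, ha, b, hb, hab⟩ := S.data_z.nonabelian
    refine ⟨_, S.mem_Q_conj (g := g) ha, _, S.mem_Q_conj (g := g) hb, fun h => hab ?_⟩
    simpa [mul_assoc] using congrArg (fun t => g⁻¹ * t * g) h

end Setup

/-- The elements of `E` commuting with all of `B`. -/
def cent (E B : Subgroup G) : Subgroup G := E ⊓ Subgroup.centralizer (B : Set G)

theorem card_cent_mono {E : Subgroup G} {x : G} (he : ExtraData E x) :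
    ∀ (k : ℕ) (B B' : Subgroup G), B ≤ B' → B' ≤ E → Nat.card B' = Nat.card B + k →
      Nat.card (cent E B) * Nat.card B ≤ Nat.card (cent E B') * Nat.card B' := by
  intro k
  induction k using Nat.strong_induction_on with
  | _ k ih =>
  intro B B' hle hE hk
  by_cases heq : B = B'
  · subst heq; exact le_rfl
  obtain ⟨b, hb, hbB⟩ := SetLike.exists_of_lt (lt_of_le_of_ne hle heq)
  set B₁ := B ⊔ Subgroup.zpowers b with hB₁
  have hB₁B' : B₁ ≤ B' := sup_le hle (Subgroup.zpowers_le.2 hb)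
  have hBB₁ : B ≤ B₁ := le_sup_left
  have hbB₁ : b ∈ B₁ := le_sup_right (α := Subgroup G) (Subgroup.mem_zpowers b)
  have h2 : 2 * Nat.card B ≤ Nat.card B₁ := by
    obtain ⟨m, hm⟩ := Subgroup.card_dvd_of_le hBB₁
    have : m ≠ 1 := fun h1 => hbB (by
      rw [Subgroup.eq_of_le_of_card_ge hBB₁ (by rw [hm, h1, mul_one])]
      exact hbB₁)
    have : m ≠ 0 := fun h0 => by
      rw [h0, mul_zero] at hm
      exact Nat.card_pos.ne' hm
    rw [hm]
    calc 2 * Nat.card B = Nat.card B * 2 := mul_comm _ _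
      _ ≤ Nat.card B * m := Nat.mul_le_mul_left _ (by omega)
  have hcomm : ∀ y ∈ cent E B, y * b = b * y → y ∈ cent E B₁ := by
    intro y hy hyb
    refine ⟨hy.1, Subgroup.mem_centralizer_iff.2 fun w hw => ?_⟩
    have hsub : B₁ ≤ Subgroup.centralizer ({y} : Set G) :=
      sup_le (fun w hw => Subgroup.mem_centralizer_singleton_iff.2
        (Subgroup.mem_centralizer_iff.1 hy.2 w hw))
        (Subgroup.zpowers_le.2 (Subgroup.mem_centralizer_singleton_iff.2 hyb.symm))
    exact Subgroup.mem_centralizer_singleton_iff.1 (hsub hw)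
  have hhalf : Nat.card (cent E B) ≤ 2 * Nat.card (cent E B₁) := by
    by_cases hall : ∀ y ∈ cent E B, y * b = b * y
    · have := Nat.le_of_dvd Nat.card_pos (Subgroup.card_dvd_of_le
        (fun y hy => hcomm y hy (hall y hy) : cent E B ≤ cent E B₁))
      omega
    · push Not at hall
      obtain ⟨q, hq, hqb⟩ := hall
      have hsub : (cent E B : Set G) ⊆
          (cent E B₁ : Set G) ∪ (fun t => q * t) '' (cent E B₁ : Set G) := by
        intro y hy
        by_cases hyb : y * b = b * y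
        · exact Or.inl (hcomm y hy hyb)
        · refine Or.inr ⟨q⁻¹ * y, hcomm _ ((cent E B).mul_mem ((cent E B).inv_mem hq) hy) ?_,
            by group⟩
          have e1 := (he.bracket q hq.1 b (hE hb)).resolve_left hqb
          have e2 := (he.bracket y hy.1 b (hE hb)).resolve_left hyb
          have hxy : x * (q⁻¹ * y) = q⁻¹ * y * x :=
            he.comm _ (E.mul_mem (E.inv_mem hq.1) hy.1)
          calc q⁻¹ * y * b = q⁻¹ * (y * b) := by group
            _ = q⁻¹ * (b * y * x) := by rw [e2]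
            _ = q⁻¹ * (b * q) * (q⁻¹ * y * x) := by group
            _ = q⁻¹ * (b * q) * (x * (q⁻¹ * y)) := by rw [hxy]
            _ = q⁻¹ * (b * q * x) * (q⁻¹ * y) := by group
            _ = q⁻¹ * (q * b) * (q⁻¹ * y) := by rw [e1]
            _ = b * (q⁻¹ * y) := by group
      have h3 := (Set.ncard_le_ncard hsub (Set.toFinite _)).trans (Set.ncard_union_le _ _)
      have h4 := Set.ncard_image_le (s := (cent E B₁ : Set G)) (f := fun t => q * t) (Set.toFinite _)
      rw [← Nat.card_coe_set_eq] at h3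
      have h5 : Nat.card (cent E B₁) = (cent E B₁ : Set G).ncard := (Nat.card_coe_set_eq _)
      have h6 : Nat.card (cent E B) ≤ (cent E B₁ : Set G).ncard +
          ((fun t => q * t) '' (cent E B₁ : Set G)).ncard := h3
      omega
  have hcard' := Subgroup.card_le_of_le hB₁B'
  have hlt : Nat.card B < Nat.card B₁ := by have := Nat.card_pos (α := B); omega
  have h7 := ih (Nat.card B' - Nat.card B₁) (by omega) B₁ B' hB₁B' hE (by omega)
  calc Nat.card (cent E B) * Nat.card B ≤ 2 * Nat.card (cent E B₁) * Nat.card B :=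
        Nat.mul_le_mul_right _ hhalf
    _ = Nat.card (cent E B₁) * (2 * Nat.card B) := by ring
    _ ≤ Nat.card (cent E B₁) * Nat.card B₁ := Nat.mul_le_mul_left _ h2
    _ ≤ _ := h7

theorem card_cent {E : Subgroup G} {x : G} (he : ExtraData E x) {B : Subgroup G} (hxB : x ∈ B)
    (hB : B ≤ E) : Nat.card (cent E B) * Nat.card B = 2 * Nat.card E := by
  have hZ : Nat.card (Subgroup.zpowers x) = 2 := by rw [Nat.card_zpowers, he.orderOf_eq]
  have hxle : Subgroup.zpowers x ≤ B := Subgroup.zpowers_le.2 hxB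
  have hle := Subgroup.card_le_of_le hxle
  have hle' := Subgroup.card_le_of_le hB
  have h1 := card_cent_mono he (Nat.card B - Nat.card (Subgroup.zpowers x)) _ B hxle hB (by omega)
  have h2 := card_cent_mono he (Nat.card E - Nat.card B) B E hB le_rfl (by omega)
  have hcE : cent E E = Subgroup.zpowers x := by
    apply le_antisymm
    · intro y hy
      rcases he.central y hy.1 (fun w hw => (Subgroup.mem_centralizer_iff.1 hy.2 w hw).symm) with h | h
      · rw [h]; exact one_mem _
      · rw [h]; exact Subgroup.mem_zpowers _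
    · exact Subgroup.zpowers_le.2 ⟨he.mem, Subgroup.mem_centralizer_iff.2 fun w hw => (he.comm w hw).symm⟩
  have hcZ : cent E (Subgroup.zpowers x) = E := by
    refine inf_eq_left.2 fun y hy => Subgroup.mem_centralizer_iff.2 ?_
    rintro _ ⟨k, rfl⟩
    exact ((show Commute x y from he.comm y hy).zpow_left k).eq
  rw [hcZ, hZ] at h1
  rw [hcE, hZ] at h2
  omega

/-- Double centralizer: a centralizer of `A` moves every element outside `A`. -/
theorem exists_sep {E : Subgroup G} {x : G} (he : ExtraData E x) {A : Subgroup G} (hxA : x ∈ A)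
    (hA : A ≤ E) {v : G} (hv : v ∈ E) (hvA : v ∉ A) :
    ∃ q ∈ E, (∀ a ∈ A, q * a = a * q) ∧ q * v * q⁻¹ = v * x := by
  set A' := A ⊔ Subgroup.zpowers v with hA'
  have hlt : A < A' := lt_of_le_of_ne le_sup_left (fun h => hvA (h ▸
    le_sup_right (α := Subgroup G) (Subgroup.mem_zpowers v)))
  have hA'E : A' ≤ E := sup_le hA (Subgroup.zpowers_le.2 hv)
  have h1 := card_cent he hxA hA
  have h2 := card_cent he (hlt.le hxA) hA'E
  have hne : ¬ cent E A ≤ cent E A' := fun h => by
    have h3 := Subgroup.card_le_of_le h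
    have h4 : Nat.card A < Nat.card A' := by
      refine lt_of_le_of_ne (Subgroup.card_le_of_le hlt.le) (fun h5 => ?_)
      exact hlt.ne (Subgroup.eq_of_le_of_card_ge hlt.le h5.ge)
    have := Nat.mul_lt_mul_of_le_of_lt h3 h4 Nat.card_pos
    omega
  obtain ⟨q, hq, hq'⟩ := SetLike.not_le_iff_exists.1 hne
  refine ⟨q, hq.1, fun a ha => (Subgroup.mem_centralizer_iff.1 hq.2 a ha).symm, ?_⟩
  have hqv : q * v ≠ v * q := fun h => hq' ⟨hq.1, by
    have hsub : A' ≤ Subgroup.centralizer ({q} : Set G) :=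
      sup_le (fun w hw => Subgroup.mem_centralizer_singleton_iff.2
        (Subgroup.mem_centralizer_iff.1 hq.2 w hw))
        (Subgroup.zpowers_le.2 (Subgroup.mem_centralizer_singleton_iff.2 h.symm))
    exact Subgroup.mem_centralizer_iff.2 fun w hw =>
      Subgroup.mem_centralizer_singleton_iff.1 (hsub hw)⟩
  have h5 := (he.bracket q hq.1 v hv).resolve_left hqv
  calc q * v * q⁻¹ = v * q * (x * q⁻¹) := by rw [h5]; group
    _ = v * q * (q⁻¹ * x) := by rw [he.comm q⁻¹ (inv_mem hq.1)]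
    _ = v * x := by group

end Cfsg.Agent.SingularInvol
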